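import Cfsg.Agent.H226.Tall.Defs
import Cfsg.Agent.Involutions.NormalFour

/-!
# S2927: tools for special rows (helper395)
-/

set_option autoImplicit false

namespace Cfsg.Agent.H395.TallRow

open Subgroup Cfsg Cfsg.Agent.H226.Tall
open Cfsg.Agent.H239.CharPLocal (CP cp_centralizer_conj)

open scoped Pointwise

universe u

variable {G : Type u} [Group G] [Finite G] {S : Sylow 2 G} {Q M Y : Subgroup G} {x : G} {K : Subgroup G}

/-- a central involution of `S` in the normal subgroup `K` of even order -/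
theorem exists_inv (S : Sylow 2 G) (hK : K.Normal) (h2 : 2 ∣ Nat.card K) :
    ∃ z ∈ (S : Subgroup G), z ∈ K ∧ z ≠ 1 ∧ z * z = 1 ∧ ∀ s ∈ (S : Subgroup G), s * z = z * s := by
  obtain ⟨t, ht⟩ := exists_prime_orderOf_dvd_card' (G := K) 2 h2
  have ht' : orderOf (t : G) = 2 := by rw [Subgroup.orderOf_coe]; exact ht
  have hP : IsPGroup 2 (zpowers (t : G)) := IsPGroup.of_card (n := 1) (by rw [Nat.card_zpowers, ht', pow_one])
  obtain ⟨P, hP'⟩ := hP.exists_le_sylow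
  obtain ⟨g, hg⟩ := MulAction.exists_smul_eq G P S
  have h3 : g * t * g⁻¹ ∈ (S : Subgroup G) := by
    rw [← hg, Sylow.coe_subgroup_smul]
    exact smul_mem_pointwise_smul (t : G) (MulAut.conj g) _ (hP' (mem_zpowers (t : G)))
  have h4 : g * t * g⁻¹ ∈ K := hK.conj_mem _ t.2 g
  have hne : (K.subgroupOf (S : Subgroup G)) ≠ ⊥ := by
    intro h
    have h5 : (⟨g * t * g⁻¹, h3⟩ : (S : Subgroup G)) ∈ K.subgroupOf (S : Subgroup G) := mem_subgroupOf.2 h4
    rw [h, mem_bot] at h5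
    have h6 : g * t * g⁻¹ = 1 := congrArg Subtype.val h5
    rw [mul_inv_eq_one] at h6
    have h7 : (t : G) = 1 := mul_eq_left.1 h6
    rw [h7, orderOf_one] at ht'
    omega
  have hn : (K.subgroupOf (S : Subgroup G)).Normal := inferInstance
  obtain ⟨z, hz, hzc, hzo⟩ := Involutions.NormalFour.exists_mem_center_of_normal S.2 _ hne
  refine ⟨z, z.2, mem_subgroupOf.1 hz, ?_, ?_, ?_⟩
  · intro h
    have : z = 1 := Subtype.ext h
    rw [this, orderOf_one] at hzo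
    omega
  · have h5 := pow_orderOf_eq_one z
    rw [hzo, pow_two] at h5
    exact congrArg Subtype.val h5
  · intro s hs
    exact (congrArg Subtype.val (mem_center_iff.1 hzc ⟨s, hs⟩))

theorem one_le_wc (Q Y : Subgroup G) : Y ≤ Wc Q Y := fun y hy =>
  subset_closure ⟨1, one_mem _, y, hy, by group⟩

/-- `N(Q)` normalises `W` -/
theorem wc_norm {Q Y : Subgroup G} {n : G} (hn : n ∈ normalizer (Q : Set G)) {w : G} (hw : w ∈ Wc Q Y) :
    n * w * n⁻¹ ∈ Wc Q Y := by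
  have h : Wc Q Y ≤ (Wc Q Y).comap (MulAut.conj n).toMonoidHom := by
    conv_lhs => unfold Wc
    rw [closure_le]
    rintro _ ⟨c, hc, y, hy, rfl⟩
    show n * (c * y * c⁻¹) * n⁻¹ ∈ Wc Q Y
    exact subset_closure ⟨n * c, mul_mem hn hc, y, hy, by group⟩
  exact h hw

theorem comm_of_sq' {E : Subgroup G} (h : ∀ w ∈ E, w * w = 1) {a b : G} (ha : a ∈ E) (hb : b ∈ E) :
    a * b = b * a := by
  have h1 := h _ (mul_mem ha hb)
  have h2 : a⁻¹ = a := inv_eq_of_mul_eq_one_left (h a ha)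
  have h3 : b⁻¹ = b := inv_eq_of_mul_eq_one_left (h b hb)
  have h4 : a * b = (a * b)⁻¹ := (inv_eq_of_mul_eq_one_left h1).symm
  rw [h4, mul_inv_rev, h2, h3]

/-- `W ≤ T` -/
theorem wc_le (h : Tall S Q M Y x) : Wc Q Y ≤ O2 M := by
  intro w hw
  rw [h.T_eq]
  refine ⟨h.Q_le (h.W_le hw), mem_centralizer_iff.2 fun y hy => ?_⟩
  exact comm_of_sq' h.W_sq (one_le_wc Q Y hy) hw

/-- `M` normalises `O₂(M)` -/
theorem o2_norm {L : Subgroup G} {m : G} (hm : m ∈ L) {t : G} (ht : t ∈ O2 L) : m * t * m⁻¹ ∈ O2 L := by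
  obtain ⟨t', ht', rfl⟩ := ht
  have hn : (pCore 2 ↥L).Normal := inferInstance
  exact ⟨⟨m, hm⟩ * t' * ⟨m, hm⟩⁻¹, hn.conj_mem _ ht' _, rfl⟩

/-- the centraliser of a central involution -/
theorem good_z (h : Tall S Q M Y x) {z : G} (hz1 : z ≠ 1) (hzz : z * z = 1)
    (hzc : ∀ s ∈ (S : Subgroup G), s * z = z * s) :
    centralizer ({z} : Set G) ≤ normalizer (Q : Set G) ∧ CP 2 ↥(centralizer ({z} : Set G)) :=
  h.good z (h.zS z hzc ⟨1, by rw [pow_one, pow_two]; exact hzz⟩) hz1 fun q hq => hzc q (h.Q_le hq)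

/-- **`x` is not conjugate to a 2-central involution** -/
theorem x_not_conj (h : Tall S Q M Y x) {z : G} (hz1 : z ≠ 1) (hzz : z * z = 1)
    (hzc : ∀ s ∈ (S : Subgroup G), s * z = z * s) (g : G) : g * z * g⁻¹ ≠ x := by
  rintro rfl
  exact h.x_bad (cp_centralizer_conj g z (good_z h hz1 hzz hzc).2)

/-- the Sylow subgroup of `K` -/
theorem exists_sylow_sub (S : Sylow 2 G) (hK : K.Normal) :
    ∃ P : Sylow 2 K, ∀ p ∈ P, (p : G) ∈ (S : Subgroup G) := by
  have := hK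
  obtain ⟨P⟩ := (inferInstance : Nonempty (Sylow 2 K))
  have hP : IsPGroup 2 ((P : Subgroup K).map K.subtype) := P.isPGroup'.map _
  obtain ⟨R, hR⟩ := hP.exists_le_sylow
  obtain ⟨g, hg⟩ := MulAction.exists_smul_eq G R S
  refine ⟨(MulAut.conjNormal g : MulAut K) • P, fun p hp => ?_⟩
  have hp' : p ∈ ((MulAut.conjNormal g : MulAut K) • (P : Subgroup K)) := hp
  obtain ⟨r, hr, rfl⟩ := hp'
  show g * (r : G) * g⁻¹ ∈ (S : Subgroup G)
  rw [← hg, Sylow.coe_subgroup_smul]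
  exact smul_mem_pointwise_smul (r : G) (MulAut.conj g) _ (hR ⟨r, hr, rfl⟩)

end Cfsg.Agent.H395.TallRow
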