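import Cfsg.Agent.MTwelveType.SylowModel
import Cfsg.Agent.H419.Spor.M12

/-!
# `M₁₂`: outer automorphisms fix no element of order 4 up to conjugation (helper395)

`four_ne` : `m * bt t * m⁻¹ ≠ t` for `t ∈ M₁₂` of order 4 (`bt` the outer automorphism induced by the element of `M₂₄`
interchanging the two dodecads): the numbers of fixed points of `t` on the two dodecads are different.
-/

set_option autoImplicit false

namespace Cfsg.Agent.H395.TallRow

open Cfsg Cfsg.Agent.MTwelveType.SylowModel Cfsg.Agent.H419.Spor.M12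
open scoped Pointwise

local notation "DD" => Spor.squareDodecad

/-- fixed points on the dodecad -/
def cD (g : Equiv.Perm GolayPt) : ℕ := (Finset.univ.filter fun p : GolayPt => p ∈ DD ∧ g p = p).card

/-- fixed points on the complement -/
def cC (g : Equiv.Perm GolayPt) : ℕ := (Finset.univ.filter fun p : GolayPt => p ∉ DD ∧ g p = p).card

set_option maxRecDepth 100000 in
theorem check : ∀ i j : ZMod (2 * 2), ∀ e d : Bool,
    (∀ p : GolayPt, (A ^ i.val * B ^ j.val * (bp C e * bp D d)).1
      ((A ^ i.val * B ^ j.val * (bp C e * bp D d)).1 p) = p) ∨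
    ¬ (∀ p : GolayPt, (A ^ i.val * B ^ j.val * (bp C e * bp D d)).1 ((A ^ i.val * B ^ j.val * (bp C e * bp D d)).1
      ((A ^ i.val * B ^ j.val * (bp C e * bp D d)).1 ((A ^ i.val * B ^ j.val * (bp C e * bp D d)).1 p))) = p) ∨
    cD (A ^ i.val * B ^ j.val * (bp C e * bp D d)).1 ≠ cC (A ^ i.val * B ^ j.val * (bp C e * bp D d)).1 := by
  decide +kernel

theorem cD_conj (m : Spor.M12) (g : Equiv.Perm GolayPt) :
    cD ((m : Equiv.Perm GolayPt) * g * (m : Equiv.Perm GolayPt)⁻¹) = cD g := by
  unfold cD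
  symm
  refine Finset.card_bij (fun p _ => (m : Equiv.Perm GolayPt) p) ?_ ?_ ?_
  · intro p hp
    rw [Finset.mem_filter] at hp ⊢
    refine ⟨Finset.mem_univ _, (mem_iff (smul_eq m) p).2 hp.2.1, ?_⟩
    show (m : Equiv.Perm GolayPt) (g ((m : Equiv.Perm GolayPt).symm ((m : Equiv.Perm GolayPt) p))) = _
    rw [Equiv.symm_apply_apply, hp.2.2]
  · intro p _ q _ h
    exact (m : Equiv.Perm GolayPt).injective h
  · intro p hp
    rw [Finset.mem_filter] at hp
    refine ⟨(m : Equiv.Perm GolayPt).symm p, ?_, Equiv.apply_symm_apply _ _⟩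
    rw [Finset.mem_filter]
    refine ⟨Finset.mem_univ _, ?_, ?_⟩
    · rw [← mem_iff (smul_eq m), Equiv.apply_symm_apply]
      exact hp.2.1
    · apply (m : Equiv.Perm GolayPt).injective
      rw [Equiv.apply_symm_apply]
      exact hp.2.2

theorem cC_conj (m : Spor.M12) (g : Equiv.Perm GolayPt) :
    cC ((m : Equiv.Perm GolayPt) * g * (m : Equiv.Perm GolayPt)⁻¹) = cC g := by
  unfold cC
  symm
  refine Finset.card_bij (fun p _ => (m : Equiv.Perm GolayPt) p) ?_ ?_ ?_
  · intro p hp
    rw [Finset.mem_filter] at hp ⊢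
    refine ⟨Finset.mem_univ _, fun h => hp.2.1 ((mem_iff (smul_eq m) p).1 h), ?_⟩
    show (m : Equiv.Perm GolayPt) (g ((m : Equiv.Perm GolayPt).symm ((m : Equiv.Perm GolayPt) p))) = _
    rw [Equiv.symm_apply_apply, hp.2.2]
  · intro p _ q _ h
    exact (m : Equiv.Perm GolayPt).injective h
  · intro p hp
    rw [Finset.mem_filter] at hp
    refine ⟨(m : Equiv.Perm GolayPt).symm p, ?_, Equiv.apply_symm_apply _ _⟩
    rw [Finset.mem_filter]
    refine ⟨Finset.mem_univ _, ?_, ?_⟩
    · rw [← mem_iff (smul_eq m), Equiv.apply_symm_apply]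
      exact hp.2.1
    · apply (m : Equiv.Perm GolayPt).injective
      rw [Equiv.apply_symm_apply]
      exact hp.2.2

theorem inv_projInv : projInv⁻¹ = projInv := by
  apply Equiv.ext
  decide +kernel

theorem proj_mem : ∀ p : GolayPt, projInv p ∈ DD ↔ p ∉ DD := by decide +kernel

theorem projInv_projInv (p : GolayPt) : projInv (projInv p) = p := by
  have h := congrArg (fun g : Equiv.Perm GolayPt => g p) (show projInv * projInv⁻¹ = 1 by group)
  rw [inv_projInv] at h
  exact h

theorem cD_bt (t : Spor.M12) : cD ((bt t : Spor.M12) : Equiv.Perm GolayPt) = cC (t : Equiv.Perm GolayPt) := by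
  have e : ∀ p, ((bt t : Spor.M12) : Equiv.Perm GolayPt) p = projInv ((t : Equiv.Perm GolayPt) (projInv p)) := by
    intro p
    show (projInv * t * projInv⁻¹ : Equiv.Perm GolayPt) p = _
    rw [inv_projInv]
    rfl
  unfold cD cC
  symm
  refine Finset.card_bij (fun p _ => projInv p) ?_ ?_ ?_
  · intro p hp
    rw [Finset.mem_filter] at hp ⊢
    refine ⟨Finset.mem_univ _, (proj_mem p).2 hp.2.1, ?_⟩
    rw [e, projInv_projInv, hp.2.2]
  · intro p _ q _ h
    exact projInv.injective h
  · intro p hp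
    rw [Finset.mem_filter] at hp
    refine ⟨projInv p, ?_, projInv_projInv p⟩
    rw [Finset.mem_filter]
    refine ⟨Finset.mem_univ _, fun h => (proj_mem p).1 h hp.2.1, ?_⟩
    have h2 := hp.2.2
    rw [e] at h2
    have h3 := congrArg projInv h2
    rwa [projInv_projInv] at h3

/-- every element of order 4 has different numbers of fixed points on the two dodecads -/
theorem cD_ne {t : Spor.M12} (h2 : t * t ≠ 1) (h4 : t * t * (t * t) = 1) :
    cD (t : Equiv.Perm GolayPt) ≠ cC (t : Equiv.Perm GolayPt) := by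
  have hfin : Finite Spor.M12 := Nat.finite_of_card_ne_zero (by rw [card_M12]; norm_num)
  have ht : t ^ 2 ^ 2 = 1 := by
    rw [show (2 : ℕ) ^ 2 = 4 by norm_num, pow_succ, pow_succ, pow_succ, pow_one]
    rw [← h4]; group
  have hP : IsPGroup 2 (Subgroup.zpowers t) := by
    rintro ⟨x, k, rfl⟩
    refine ⟨2, Subtype.ext ?_⟩
    show (t ^ k) ^ 2 ^ 2 = 1
    rw [← zpow_natCast, ← zpow_mul, mul_comm, zpow_mul, zpow_natCast, ht, one_zpow]
  obtain ⟨P, hP'⟩ := hP.exists_le_sylow
  have h1 : IsPGroup 2 hom.range := IsPGroup.of_card (n := 6) (by rw [card_range_hom]; norm_num)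
  obtain ⟨P', hQ⟩ := h1.exists_le_sylow
  have hQ2 : hom.range = (P' : Subgroup Spor.M12) := by
    apply Subgroup.eq_of_le_of_card_ge hQ
    rw [card_range_hom]
    exact (card_sylow P').le
  obtain ⟨g, hg⟩ := MulAction.exists_smul_eq Spor.M12 P P'
  have h3 : g * t * g⁻¹ ∈ hom.range := by
    rw [hQ2, ← hg]
    rw [Sylow.coe_subgroup_smul]
    exact Subgroup.smul_mem_pointwise_smul t (MulAut.conj g) _ (hP' (Subgroup.mem_zpowers t))
  obtain ⟨x, hx⟩ := h3
  have h5 : cD ((g * t * g⁻¹ : Spor.M12) : Equiv.Perm GolayPt) = cD (t : Equiv.Perm GolayPt) := cD_conj g _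
  have h6 : cC ((g * t * g⁻¹ : Spor.M12) : Equiv.Perm GolayPt) = cC (t : Equiv.Perm GolayPt) := cC_conj g _
  rw [← h5, ← h6, ← hx]
  have h7 : hom x * hom x ≠ 1 := by
    rw [hx]
    intro h
    apply h2
    have h8 : g * (t * t) * g⁻¹ = 1 := by rw [← h]; group
    rw [mul_inv_eq_one] at h8
    exact mul_eq_left.1 h8
  have h8 : hom x * hom x * (hom x * hom x) = 1 := by
    rw [hx]
    calc g * t * g⁻¹ * (g * t * g⁻¹) * (g * t * g⁻¹ * (g * t * g⁻¹)) = g * (t * t * (t * t)) * g⁻¹ := by group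
      _ = 1 := by rw [h4]; group
  rcases x with ⟨i, j, e, d⟩
  rw [hom_apply] at h7 h8 ⊢
  rcases check i j e d with h | h | h
  · exact absurd (ext_M12 h) h7
  · exfalso
    apply h
    intro p
    exact congrArg (fun y : Spor.M12 => y.1 p) h8
  · exact h

/-- **Outer automorphisms of `M₁₂` fix no element of order 4.** -/
theorem four_ne {t : Spor.M12} (h2 : t * t ≠ 1) (h4 : t * t * (t * t) = 1) (m : Spor.M12) :
    m * bt t * m⁻¹ ≠ t := by
  intro h
  apply cD_ne h2 h4
  calc cD (t : Equiv.Perm GolayPt) = cD ((m * bt t * m⁻¹ : Spor.M12) : Equiv.Perm GolayPt) := by rw [h]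
    _ = cD ((bt t : Spor.M12) : Equiv.Perm GolayPt) := cD_conj m _
    _ = cC (t : Equiv.Perm GolayPt) := cD_bt t

/-- an automorphism fixing an element of order 4 is inner -/
theorem inner_of_four {K : Type*} [Group K] (e : K ≃* Spor.M12) (α : MulAut K) {t : K} (h2 : t * t ≠ 1)
    (h4 : t * t * (t * t) = 1) (h : α t = t) : ∃ k : K, ∀ x, α x = k * x * k⁻¹ := by
  rcases mem_or (MulAut.congr e α) with ⟨m, hm⟩ | ⟨m, hm⟩
  · refine ⟨e.symm m, fun x => e.injective ?_⟩
    have h1 := DFunLike.congr_fun hm (e x)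
    have h3 : (MulAut.congr e α) (e x) = e (α x) := by
      change e (α (e.symm (e x))) = _
      rw [e.symm_apply_apply]
    rw [h3] at h1
    rw [h1, map_mul, map_mul, map_inv, e.apply_symm_apply]
    rfl
  · exfalso
    have h1 := DFunLike.congr_fun hm (e t)
    have h3 : (MulAut.congr e α) (e t) = e (α t) := by
      change e (α (e.symm (e t))) = _
      rw [e.symm_apply_apply]
    rw [h3, h] at h1
    refine four_ne (t := e t) (fun h5 => h2 ?_) ?_ m h1.symm
    · apply e.injective
      rw [map_mul, h5, map_one]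
    · rw [← map_mul, ← map_mul, h4, map_one]

end Cfsg.Agent.H395.TallRow
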