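import Cfsg.Agent.Omega.Quasithin.Row.MTwelve

/-!
# `M₁₂`: normal elementary abelian subgroups of `C(z)`, `z` 2-central (helper395)
-/

set_option autoImplicit false

namespace Cfsg.Agent.H395.TallRow.Md

open Equiv Cfsg Cfsg.Agent.CoThreeStd.M12 Subgroup Cfsg.Agent.Omega.Quasithin.M12

/-- `z` is the only 2-central involution up to conjugation -/
theorem conj_z {t : G12} (ht : t * t = 1) (ht1 : t ≠ 1) (hP : ∃ P : Sylow 2 G12, ∀ x ∈ P, x * t = t * x) :
    ∃ g : G12, g * t * g⁻¹ = z := by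
  obtain ⟨P, hP⟩ := hP
  obtain ⟨S, hS⟩ := exists_sylow
  obtain ⟨g, hg⟩ := MulAction.exists_smul_eq G12 P S
  refine ⟨g, ?_⟩
  -- `Q ≤ S`
  have hSz : (S : Subgroup G12) ≤ centralizer ({z} : Set G12) := fun x hx => (mem_centralizer_iff' x).2 (hS x hx)
  have hQS : Q ≤ (S : Subgroup G12) := by
    have h1 : IsPGroup 2 ↥(Q ⊔ (S : Subgroup G12)) := by
      refine IsPGroup.to_sup_of_normal_left' isPGroup_Q S.2 ?_
      intro s hs
      rw [mem_normalizer_iff]
      intro x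
      have hs' := hS s hs
      constructor
      · intro hx
        exact conj_mem_Q s hs' x hx
      · intro hx
        have h2 : s⁻¹ * z = z * s⁻¹ := by
          rw [inv_mul_eq_iff_eq_mul, ← mul_assoc, hs', mul_assoc, mul_inv_cancel, mul_one]
        have := conj_mem_Q s⁻¹ h2 _ hx
        have e : s⁻¹ * (s * x * s⁻¹) * s⁻¹⁻¹ = x := by group
        rwa [e] at this
    have h2 := S.is_maximal' h1 le_sup_right
    rw [← h2]
    exact le_sup_left
  -- the conjugate of `t` centralises `S`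
  have hc : ∀ x ∈ (S : Subgroup G12), x * (g * t * g⁻¹) = g * t * g⁻¹ * x := by
    intro x hx
    rw [← hg, Sylow.coe_subgroup_smul] at hx
    obtain ⟨y, hy, rfl⟩ := hx
    change g * y * g⁻¹ * (g * t * g⁻¹) = g * t * g⁻¹ * (g * y * g⁻¹)
    calc g * y * g⁻¹ * (g * t * g⁻¹) = g * (y * t) * g⁻¹ := by group
      _ = g * (t * y) * g⁻¹ := by rw [hP y hy]
      _ = _ := by group
  have h1 : g * t * g⁻¹ * (g * t * g⁻¹) = 1 := by
    calc g * t * g⁻¹ * (g * t * g⁻¹) = g * (t * t) * g⁻¹ := by group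
      _ = 1 := by rw [ht]; group
  have h2 : g * t * g⁻¹ ≠ 1 := by
    intro h
    rw [mul_inv_eq_one] at h
    exact ht1 (mul_eq_left.1 h)
  have hzQ : z ∈ Q := mem_Q_of_fix fun i hi => (fix_iff i).2 hi
  have h3 : g * t * g⁻¹ ∈ Q := self_Q _ (hc z (hQS hzQ)).symm fun x hx => (hc x (hQS hx)).symm
  exact eq_z_of_comm h3 h1 h2 fun x hx => hc x (hQS hx)

/-- `C(z)` induces the symmetric group on `F` -/
theorem psi_surj : Function.Surjective psi := by
  intro σ
  have m0 : (0 : Fin 12) ∈ F := by decide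
  have m6 : (6 : Fin 12) ∈ F := by decide
  have m1 : (1 : Fin 12) ∈ F := by decide
  have m2 : (2 : Fin 12) ∈ F := by decide
  have hne : ∀ (a b : Fin 12) (ha : a ∈ F) (hb : b ∈ F), a ≠ b → ((σ ⟨a, ha⟩ : X) : Fin 12) ≠ σ ⟨b, hb⟩ := by
    intro a b ha hb hab h
    exact hab (congrArg (fun u : X => (u : Fin 12)) (σ.injective (Subtype.ext h)))
  obtain ⟨x, h0, h6, h1, h2⟩ := trans_four (σ ⟨0, m0⟩ : X) (σ ⟨6, m6⟩ : X) (σ ⟨1, m1⟩ : X) (σ ⟨2, m2⟩ : X)
    (hne _ _ _ _ (by decide)) (hne _ _ _ _ (by decide)) (hne _ _ _ _ (by decide)) (hne _ _ _ _ (by decide))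
    (hne _ _ _ _ (by decide)) (hne _ _ _ _ (by decide))
  have key : ∀ i (hi : i ∈ F), (x : P12) i = (σ ⟨i, hi⟩ : X) := by
    intro i hi
    have hi' : i = 0 ∨ i = 6 ∨ i = 1 ∨ i = 2 := by
      simpa [F] using hi
    rcases hi' with rfl | rfl | rfl | rfl
    · exact h0
    · exact h6
    · exact h1
    · exact h2
  have hz : x * z = z * x := comm_z fun i hi => by rw [key i hi]; exact (σ ⟨i, hi⟩).2
  refine ⟨⟨x, (mem_centralizer_iff' x).2 hz⟩, Equiv.ext fun i => Subtype.ext ?_⟩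
  rw [psi_apply]
  exact key i.1 i.2

theorem perm_good : ∀ σ : Perm X, σ * σ = 1 → σ ≠ 1 → (∀ τ : Perm X, τ * σ * τ⁻¹ * σ = σ * (τ * σ * τ⁻¹)) →
    ∀ i, σ i ≠ i ∧ σ (σ i) = i := by decide +kernel

theorem perm_trans' : ∀ σ τ : Perm X, ¬ (∀ i, σ i ≠ i ∧ σ (σ i) = i) ∨ ¬ (∀ i, τ i ≠ i ∧ τ (τ i) = i) ∨
    ∃ ρ : Perm X, ρ * σ * ρ⁻¹ = τ := by decide +kernel

theorem perm_trans (σ τ : Perm X) (h : ∀ i, σ i ≠ i ∧ σ (σ i) = i) (h' : ∀ i, τ i ≠ i ∧ τ (τ i) = i) :
    ∃ ρ : Perm X, ρ * σ * ρ⁻¹ = τ := by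
  rcases perm_trans' σ τ with h1 | h1 | h1
  · exact absurd h h1
  · exact absurd h' h1
  · exact h1

theorem good_comm : ∀ σ τ : Perm X, Good σ → Good τ → σ * τ = τ * σ := by decide +kernel

theorem card_good : ∃ l : List (Perm X), l.Nodup ∧ l.length = 3 ∧ ∀ σ ∈ l, ∀ i, σ i ≠ i ∧ σ (σ i) = i := by
  refine ⟨(Finset.univ.filter fun σ : Perm X => ∀ i, σ i ≠ i ∧ σ (σ i) = i).toList, Finset.nodup_toList _, ?_, ?_⟩
  · rw [Finset.length_toList]
    decide +kernel
  · intro σ hσ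
    rw [Finset.mem_toList, Finset.mem_filter] at hσ
    exact hσ.2

/-- a normal elementary abelian subgroup of `C(z)` containing `z` properly -/
structure NE (E : Subgroup G12) : Prop where
  sq : ∀ w ∈ E, w * w = 1
  z_mem : z ∈ E
  norm : ∀ g : G12, g * z = z * g → ∀ w ∈ E, g * w * g⁻¹ ∈ E
  ex : ∃ w ∈ E, w ≠ 1 ∧ w ≠ z

theorem comm_of_sq {E : Subgroup G12} (h : ∀ w ∈ E, w * w = 1) {a b : G12} (ha : a ∈ E) (hb : b ∈ E) :
    a * b = b * a := by
  have h1 := h _ (mul_mem ha hb)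
  have h2 : a⁻¹ = a := inv_eq_of_mul_eq_one_left (h a ha)
  have h3 : b⁻¹ = b := inv_eq_of_mul_eq_one_left (h b hb)
  have h4 : a * b = (a * b)⁻¹ := (inv_eq_of_mul_eq_one_left h1).symm
  rw [h4, mul_inv_rev, h2, h3]

/-- the action of an element commuting with `z` -/
def ps (w : G12) (h : w * z = z * w) : Perm X := psi ⟨w, (mem_centralizer_iff' w).2 h⟩

theorem ps_mul {a b : G12} (ha : a * z = z * a) (hb : b * z = z * b) (hab : a * b * z = z * (a * b)) :
    ps (a * b) hab = ps a ha * ps b hb := by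
  unfold ps
  rw [← map_mul]
  rfl

theorem ps_conj {g a : G12} (hg : g * z = z * g) (ha : a * z = z * a) (h : g * a * g⁻¹ * z = z * (g * a * g⁻¹)) :
    ps (g * a * g⁻¹) h = ps g hg * ps a ha * (ps g hg)⁻¹ := by
  unfold ps
  rw [← map_inv, ← map_mul, ← map_mul]
  rfl

/-- involutions acting trivially on `F` -/
theorem eq_of_ps_one {w : G12} (h : w * z = z * w) (hw : w * w = 1) (h1 : ps w h = 1) : w = 1 ∨ w = z := by
  by_cases hw1 : w = 1
  · exact Or.inl hw1
  · right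
    refine eq_z (fun i hi => ?_) hw hw1
    have := congrArg (fun σ : Perm X => ((σ ⟨i, hi⟩ : X) : Fin 12)) h1
    exact this

section

variable {E : Subgroup G12} (h : NE E)

include h

theorem NE.cz {w : G12} (hw : w ∈ E) : w * z = z * w := comm_of_sq h.sq hw h.z_mem

theorem NE.fpf {w : G12} (hw : w ∈ E) (h1 : w ≠ 1) (hz : w ≠ z) :
    ∀ i, ps w (h.cz hw) i ≠ i ∧ ps w (h.cz hw) (ps w (h.cz hw) i) = i := by
  apply perm_good
  · rw [← ps_mul (h.cz hw) (h.cz hw) (by rw [h.sq w hw]; simp)]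
    have e : ∀ (u : G12) (hu : u * z = z * u), u = 1 → ps u hu = 1 := by
      rintro u hu rfl
      exact map_one psi
    exact e _ _ (h.sq w hw)
  · intro h2
    rcases eq_of_ps_one _ (h.sq w hw) h2 with h3 | h3
    · exact h1 h3
    · exact hz h3
  · intro τ
    obtain ⟨⟨g, hg⟩, rfl⟩ := psi_surj τ
    have hg' := (mem_centralizer_iff' g).1 hg
    have hw' := h.norm g hg' w hw
    have e1 := ps_conj hg' (h.cz hw) (h.cz hw')
    have e2 := ps_mul (h.cz hw') (h.cz hw) (h.cz (mul_mem hw' hw))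
    have e3 := ps_mul (h.cz hw) (h.cz hw') (h.cz (mul_mem hw hw'))
    have e4 : ∀ (u v : G12) (hu : u * z = z * u) (hv : v * z = z * v), u = v → ps u hu = ps v hv := by
      rintro u v hu hv rfl
      rfl
    have e5 := e4 _ _ (h.cz (mul_mem hw' hw)) (h.cz (mul_mem hw hw')) (comm_of_sq h.sq hw' hw)
    rw [e2, e3, e1] at e5
    exact e5

theorem NE.good {w : G12} (hw : w ∈ E) : Good (ps w (h.cz hw)) := by
  by_cases h1 : w = 1
  · subst h1
    exact Or.inl (map_one psi)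
  · by_cases hz : w = z
    · subst hz
      left
      refine Equiv.ext fun i => Subtype.ext ?_
      exact (fix_iff i.1).2 i.2
    · exact Or.inr (h.fpf hw h1 hz)

theorem NE.mem_Q {w : G12} (hw : w ∈ E) : w ∈ Q :=
  Cfsg.Agent.Omega.Quasithin.M12.mem_Q.2 ⟨h.cz hw, h.good hw⟩

/-- elements of `E` with the same action differ by `z` -/
theorem NE.eq_or {w w' : G12} (hw : w ∈ E) (hw' : w' ∈ E) (he : ps w (h.cz hw) = ps w' (h.cz hw')) :
    w = w' ∨ w = w' * z := by
  have hm := mul_mem hw' hw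
  have h1 : ps (w' * w) (h.cz hm) = 1 := by
    rw [ps_mul (h.cz hw') (h.cz hw) (h.cz hm), he]
    exact good_sq (h.good hw')
  rcases eq_of_ps_one _ (h.sq _ hm) h1 with h2 | h2
  · left
    have h3 : w' * (w' * w) = w' := by rw [h2, mul_one]
    rwa [← mul_assoc, h.sq w' hw', one_mul] at h3
  · right
    have h3 : w' * (w' * w) = w' * z := by rw [h2]
    rwa [← mul_assoc, h.sq w' hw', one_mul] at h3

/-- **`C(z)` is transitive on `E ∖ ⟨z⟩`** -/
theorem NE.trans {w w' : G12} (hw : w ∈ E) (h1 : w ≠ 1) (hz : w ≠ z) (hw' : w' ∈ E) (h1' : w' ≠ 1) (hz' : w' ≠ z) :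
    ∃ g : G12, g * z = z * g ∧ g * w * g⁻¹ = w' := by
  obtain ⟨ρ, hρ⟩ := perm_trans _ _ (h.fpf hw h1 hz) (h.fpf hw' h1' hz')
  obtain ⟨⟨g, hg⟩, rfl⟩ := psi_surj ρ
  have hg' := (mem_centralizer_iff' g).1 hg
  have hgw := h.norm g hg' w hw
  have e1 : ps (g * w * g⁻¹) (h.cz hgw) = ps w' (h.cz hw') := by
    rw [ps_conj hg' (h.cz hw) (h.cz hgw)]
    exact hρ
  rcases h.eq_or hgw hw' e1 with h2 | h2
  · exact ⟨g, hg', h2⟩
  · -- an element of `Q` not commuting with `w'`
    obtain ⟨q, hq, hqw⟩ : ∃ q ∈ Q, q * w' ≠ w' * q := by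
      by_contra hcon
      push Not at hcon
      exact hz' (eq_z_of_comm (h.mem_Q hw') (h.sq w' hw') h1' hcon)
    obtain ⟨hqz, hqg⟩ := Cfsg.Agent.Omega.Quasithin.M12.mem_Q.1 hq
    have hqw' := h.norm q hqz w' hw'
    have e2 : ps (q * w' * q⁻¹) (h.cz hqw') = ps w' (h.cz hw') := by
      rw [ps_conj hqz (h.cz hw') (h.cz hqw')]
      rw [good_comm (ps q hqz) (ps w' (h.cz hw')) hqg (h.good hw')]
      group
    rcases h.eq_or hqw' hw' e2 with h3 | h3
    · exact absurd (mul_inv_eq_iff_eq_mul.1 h3) hqw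
    · have hqi : q⁻¹ * z = z * q⁻¹ := by
        rw [inv_mul_eq_iff_eq_mul, ← mul_assoc, hqz, mul_assoc, mul_inv_cancel, mul_one]
      refine ⟨q⁻¹ * g, ?_, ?_⟩
      · rw [mul_assoc, hg', ← mul_assoc, hqi, mul_assoc]
      · have h4 : g * w * g⁻¹ = q * w' * q⁻¹ := by rw [h2, h3]
        calc q⁻¹ * g * w * (q⁻¹ * g)⁻¹ = q⁻¹ * (g * w * g⁻¹) * q := by group
          _ = q⁻¹ * (q * w' * q⁻¹) * q := by rw [h4]
          _ = w' := by group

/-- every good permutation is induced by an element of `E` -/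
theorem NE.exists_of_good {σ : Perm X} (hσ : Good σ) : ∃ w, ∃ hw : w ∈ E, ps w (h.cz hw) = σ := by
  rcases hσ with rfl | hσ
  · exact ⟨1, one_mem _, map_one psi⟩
  · obtain ⟨w, hw, h1, hz⟩ := h.ex
    obtain ⟨ρ, hρ⟩ := perm_trans _ _ (h.fpf hw h1 hz) hσ
    obtain ⟨⟨g, hg⟩, rfl⟩ := psi_surj ρ
    have hg' := (mem_centralizer_iff' g).1 hg
    have hgw := h.norm g hg' w hw
    exact ⟨_, hgw, (ps_conj hg' (h.cz hw) (h.cz hgw)).trans hρ⟩

/-- **`E` is a maximal elementary abelian subgroup** -/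
theorem NE.max {E' : Subgroup G12} (hle : E ≤ E') (hsq : ∀ w ∈ E', w * w = 1) : E' ≤ E := by
  intro w hw
  have hz : w * z = z * w := comm_of_sq hsq hw (hle h.z_mem)
  have hgood : Good (ps w hz) := by
    obtain ⟨l, hl, hl3, hlg⟩ := card_good
    match l, hl, hl3, hlg with
    | [a, b, c], hl, _, hlg =>
      have hab : a ≠ b := by
        rintro rfl
        simp at hl
      obtain ⟨wa, hwa, ea⟩ := h.exists_of_good (Or.inr (hlg a (by simp)))
      obtain ⟨wb, hwb, eb⟩ := h.exists_of_good (Or.inr (hlg b (by simp)))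
      have comm : ∀ (u : G12) (hu : u ∈ E), ps w hz * ps u (h.cz hu) = ps u (h.cz hu) * ps w hz := by
        intro u hu
        have huw : w * u * z = z * (w * u) := by rw [mul_assoc, h.cz hu, ← mul_assoc, hz, mul_assoc]
        have huw' : u * w * z = z * (u * w) := by rw [mul_assoc, hz, ← mul_assoc, h.cz hu, mul_assoc]
        have e4 : ∀ (u v : G12) (hu : u * z = z * u) (hv : v * z = z * v), u = v → ps u hu = ps v hv := by
          rintro u v hu hv rfl
          rfl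
        have e5 := e4 _ _ huw huw' (comm_of_sq hsq hw (hle hu))
        rwa [ps_mul hz (h.cz hu), ps_mul (h.cz hu) hz] at e5
      refine good_of_comm a (hlg a (by simp)) b (hlg b (by simp)) hab _ ?_ ?_
      · rw [← ea]
        exact comm wa hwa
      · rw [← eb]
        exact comm wb hwb
  obtain ⟨w', hw', he⟩ := h.exists_of_good hgood
  have h3 : w * w' * z = z * (w * w') := by rw [mul_assoc, h.cz hw', ← mul_assoc, hz, mul_assoc]
  have h1 : ps (w * w') h3 = 1 := by
    rw [ps_mul hz (h.cz hw'), he]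
    exact good_sq hgood
  rcases eq_of_ps_one _ (hsq _ (mul_mem hw (hle hw'))) h1 with h4 | h4
  · rw [show w = w'⁻¹ from eq_inv_of_mul_eq_one_left h4]
    exact inv_mem hw'
  · rw [show w = z * w'⁻¹ from eq_mul_inv_of_mul_eq h4]
    exact mul_mem h.z_mem (inv_mem hw')

/-- `|E| = 8` -/
theorem NE.card : Nat.card E = 8 := by
  classical
  have hfin : Finite G12 := inferInstance
  let f : E →* Perm X :=
    { toFun := fun w => ps w (h.cz w.2)
      map_one' := map_one psi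
      map_mul' := fun a b => ps_mul (h.cz a.2) (h.cz b.2) _ }
  have hr : Nat.card f.range = 4 := by
    have h1 : f.range = V := by
      ext σ
      constructor
      · rintro ⟨w, rfl⟩
        exact h.good w.2
      · intro hσ
        obtain ⟨w, hw, he⟩ := h.exists_of_good hσ
        exact ⟨⟨w, hw⟩, he⟩
    rw [h1]
    have h2 : (V : Set (Perm X)) = {σ | Good σ} := rfl
    rw [← SetLike.coe_sort_coe, h2]
    change Nat.card {σ : Perm X // Good σ} = 4
    rw [Nat.card_eq_fintype_card, Fintype.card_subtype]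
    decide +kernel
  have hk : Nat.card f.ker = 2 := by
    have h1 : (f.ker : Set E) = {1, ⟨z, h.z_mem⟩} := by
      ext w
      constructor
      · intro hw
        rcases eq_of_ps_one (h.cz w.2) (h.sq w w.2) hw with h2 | h2
        · exact Or.inl (Subtype.ext h2)
        · exact Or.inr (Subtype.ext h2)
      · rintro (rfl | rfl)
        · exact one_mem _
        · show ps z rfl = 1
          refine Equiv.ext fun i => Subtype.ext ?_
          exact (fix_iff i.1).2 i.2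
    rw [← SetLike.coe_sort_coe, h1, Nat.card_coe_set_eq, Set.ncard_pair]
    intro h2
    exact z_ne (congrArg Subtype.val h2).symm
  have h1 := Subgroup.card_mul_index f.ker
  rw [Subgroup.index_ker, hr, hk] at h1
  omega

end

end Cfsg.Agent.H395.TallRow.Md
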