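import Cfsg.Agent.H395.TallRow.Base
import Cfsg.Agent.H395.TallRow.MTwFour
import Cfsg.Agent.H395.TallRow.MTwModel

/-!
# S2927: `M₁₂` (helper395)

`no1_m12`, `rowTwo_m12`.
-/

set_option autoImplicit false

namespace Cfsg.Agent.H395.TallRow

open Subgroup Cfsg Cfsg.Agent.H226.Tall
open Cfsg.Agent.H239.CharPLocal (CP cp_centralizer_conj)
open Cfsg.Agent.CoThreeStd.M12 (G12)
open scoped Pointwise

universe u

theorem card_g12 : Nat.card G12 = 95040 := by
  rw [← Nat.card_congr CoThreeStd.M12.equiv.toEquiv]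
  exact MTwelveType.SylowModel.card_M12

/-- a model in which the given 2-central involution is the standard one -/
theorem exists_equiv {K : Type*} [Group K] [Finite K] (e : K ≃* G12) {z : K} (hz1 : z ≠ 1) (hzz : z * z = 1)
    (hP : ∃ P : Sylow 2 K, ∀ p ∈ P, p * z = z * p) :
    ∃ f : K ≃* G12, f z = Omega.Quasithin.M12.z := by
  obtain ⟨P, hP⟩ := hP
  obtain ⟨g, hg⟩ := Md.conj_z (t := e z) (by rw [← map_mul, hzz, map_one]) (fun h => hz1 (by
    apply e.injective
    rw [h, map_one])) ⟨P.mapSurjective (f := e.toMonoidHom) e.surjective, by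
      rintro _ ⟨p, hp, rfl⟩
      show e p * e z = e z * e p
      rw [← map_mul, hP p hp, map_mul]⟩
  exact ⟨e.trans (MulAut.conj g), hg⟩

/-- a power of order 4 -/
theorem exists_four {G : Type*} [Group G] {t : G} {n : ℕ} (hn : t ^ 2 ^ n = 1) (h2 : t * t ≠ 1) :
    ∃ j : ℕ, t ^ j * t ^ j ≠ 1 ∧ t ^ j * t ^ j * (t ^ j * t ^ j) = 1 := by
  obtain ⟨k, -, hk⟩ := (Nat.dvd_prime_pow Nat.prime_two).1 (orderOf_dvd_of_pow_eq_one hn)
  have hk2 : 2 ≤ k := by
    by_contra h
    apply h2
    rw [← pow_two, ← orderOf_dvd_iff_pow_eq_one, hk]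
    interval_cases k
    · simp
    · simp
  obtain ⟨i, rfl⟩ : ∃ i, k = i + 2 := ⟨k - 2, by omega⟩
  refine ⟨2 ^ i, ?_, ?_⟩
  · rw [← pow_add, ← two_mul, ← pow_succ', Ne, ← orderOf_dvd_iff_pow_eq_one, hk,
      Nat.pow_dvd_pow_iff_le_right (le_refl 2)]
    omega
  · rw [← pow_add, ← two_mul, ← pow_succ', ← pow_add, ← two_mul, ← pow_succ', ← orderOf_dvd_iff_pow_eq_one, hk]

/-- an element inducing an inner automorphism on `K` is in `K` -/
theorem mem_of_inner {G : Type*} [Group G] {K : Subgroup G} (hC : centralizer (K : Set G) = ⊥) {g : G} {k : G}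
    (hk : k ∈ K) (h : ∀ y ∈ K, g * y * g⁻¹ = k * y * k⁻¹) : g ∈ K := by
  have h1 : k⁻¹ * g ∈ centralizer (K : Set G) := by
    rw [mem_centralizer_iff]
    intro y hy
    have h2 := h y hy
    have h3 : k⁻¹ * (g * y * g⁻¹) * g = k⁻¹ * (k * y * k⁻¹) * g := by rw [h2]
    calc y * (k⁻¹ * g) = k⁻¹ * (k * y * k⁻¹) * g := by group
      _ = k⁻¹ * (g * y * g⁻¹) * g := h3.symm
      _ = k⁻¹ * g * y := by group
  rw [hC, mem_bot, inv_mul_eq_one] at h1
  rw [← h1]
  exact hk

/-- **`F*(G) = M₁₂` does not occur.** -/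
theorem no1_m12 : No1.{u} (fun K _ => Spor.IsoM12 K) := by
  intro G _ _ S Q M Y x K h hM
  obtain ⟨e0⟩ := hM
  have hKn := h.nK
  have hT : Tall S Q M Y x := h.toTall
  have hcK : Nat.card K = 95040 := by
    rw [Nat.card_congr e0.toEquiv]; exact MTwelveType.SylowModel.card_M12
  obtain ⟨z, hzS, hzK, hz1, hzz, hzc⟩ := exists_inv S hKn (by rw [hcK]; norm_num)
  obtain ⟨P, hP⟩ := exists_sylow_sub S hKn
  obtain ⟨f, hf⟩ := exists_equiv (e0.trans CoThreeStd.M12.equiv) (z := (⟨z, hzK⟩ : K))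
    (fun h => hz1 (congrArg Subtype.val h)) (Subtype.ext hzz) ⟨P, fun p hp => Subtype.ext (hzc p (hP p hp))⟩
  have hgz := good_z hT hz1 hzz hzc
  obtain ⟨m, hm, hmY, hmz⟩ := h.moves z hzc hzz hz1
  have hmK : m * z * m⁻¹ ∈ K := hKn.conj_mem z hzK m
  have hzY : z ∈ Y := h.omega z hzc hzz
  have hYW := one_le_wc Q Y
  have hm1 : m * z * m⁻¹ ≠ 1 := by
    intro h1
    rw [mul_inv_eq_one] at h1
    exact hz1 (mul_eq_left.1 h1)
  let E : Subgroup G12 := ((Wc Q Y).subgroupOf K).map f.toMonoidHom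
  have memE : ∀ k : K, f k ∈ E ↔ (k : G) ∈ Wc Q Y := by
    intro k
    constructor
    · rintro ⟨k', hk', he⟩
      have : k' = k := f.injective he
      rw [← this]
      exact mem_subgroupOf.1 hk'
    · intro hk
      exact ⟨k, mem_subgroupOf.2 hk, rfl⟩
  have hne1 : f ⟨m * z * m⁻¹, hmK⟩ ≠ 1 := by
    intro h1
    rw [← map_one f] at h1
    exact hm1 (congrArg Subtype.val (f.injective h1))
  have hnez : f ⟨m * z * m⁻¹, hmK⟩ ≠ Omega.Quasithin.M12.z := by
    intro h1
    rw [← hf] at h1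
    exact hmz (congrArg Subtype.val (f.injective h1))
  have hE : Md.NE E := by
    refine ⟨?_, ?_, ?_, ⟨f ⟨m * z * m⁻¹, hmK⟩, (memE _).2 (hYW hmY), hne1, hnez⟩⟩
    · rintro _ ⟨k, hk, rfl⟩
      show f k * f k = 1
      rw [← map_mul, show k * k = 1 from Subtype.ext (h.W_sq _ (mem_subgroupOf.1 hk)), map_one]
    · rw [← hf]
      exact (memE _).2 (hYW hzY)
    · rintro g hg _ ⟨w, hw, rfl⟩
      obtain ⟨k, rfl⟩ := f.surjective g
      show f k * f w * (f k)⁻¹ ∈ E
      rw [← map_mul, ← map_inv, ← map_mul, memE]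
      have hk : (k : G) ∈ centralizer ({z} : Set G) := by
        rw [mem_centralizer_singleton_iff]
        rw [← hf, ← map_mul, ← map_mul] at hg
        exact congrArg Subtype.val (f.injective hg)
      exact wc_norm (hgz.1 hk) (mem_subgroupOf.1 hw)
  -- all involutions of `W ∩ K` are conjugate to `z`
  have hconj : ∀ w ∈ Wc Q Y, w ∈ K → w ≠ 1 → ∃ g : G, w = g * z * g⁻¹ := by
    intro w hw hwK hw1
    by_cases hwz : w = z
    · exact ⟨1, by rw [hwz]; group⟩
    · obtain ⟨g, -, hg⟩ := hE.trans ((memE _).2 (hYW hmY)) hne1 hnez ((memE ⟨w, hwK⟩).2 hw) (by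
        intro h1
        rw [← map_one f] at h1
        exact hw1 (congrArg Subtype.val (f.injective h1))) (by
        intro h1
        rw [← hf] at h1
        exact hwz (congrArg Subtype.val (f.injective h1)))
      obtain ⟨k, rfl⟩ := f.surjective g
      rw [← map_mul, ← map_inv, ← map_mul] at hg
      have h1 : (k : G) * (m * z * m⁻¹) * (k : G)⁻¹ = w := congrArg Subtype.val (f.injective hg)
      exact ⟨k * m, by rw [← h1]; group⟩
  have hx1 : x ≠ 1 := by
    rintro rfl
    have := h.x_ord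
    rw [orderOf_one] at this
    omega
  have hxK : x ∉ K := by
    intro hxK
    obtain ⟨g, hg⟩ := hconj x (hYW h.x_mem) hxK hx1
    exact x_not_conj hT hz1 hzz hzc g hg.symm
  -- the elements of `T ∩ K` are involutions
  have hTsq : ∀ t ∈ O2 M, t ∈ K → t * t = 1 := by
    intro t ht htK
    by_contra h2
    rw [h.T_eq] at ht
    obtain ⟨n, hn⟩ := S.isPGroup' ⟨t, ht.1⟩
    have hn' : t ^ 2 ^ n = 1 := congrArg Subtype.val hn
    obtain ⟨j, hj2, hj4⟩ := exists_four hn' h2
    have htx : x * t = t * x := mem_centralizer_iff.1 ht.2 x h.x_mem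
    have hc : x * t ^ j * x⁻¹ = t ^ j := by
      have : Commute x t := htx
      rw [(this.pow_right j).eq, mul_inv_cancel_right]
    obtain ⟨k, hk⟩ := inner_of_four e0 (MulAut.conjNormal x : MulAut K) (t := ⟨t ^ j, pow_mem htK j⟩)
      (fun h3 => hj2 (congrArg Subtype.val h3)) (Subtype.ext hj4) (Subtype.ext hc)
    exact hxK (mem_of_inner h.cent k.2 fun y hy => congrArg Subtype.val (hk ⟨y, hy⟩))
  -- `T ∩ K = W ∩ K`
  have hTW : ∀ t ∈ O2 M, t ∈ K → t ∈ Wc Q Y := by
    intro t ht htK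
    have h1 : ((O2 M).subgroupOf K).map f.toMonoidHom ≤ E := by
      refine hE.max ?_ ?_
      · rintro _ ⟨w, hw, rfl⟩
        exact ⟨w, mem_subgroupOf.2 (wc_le hT (mem_subgroupOf.1 hw)), rfl⟩
      · rintro _ ⟨w, hw, rfl⟩
        show f w * f w = 1
        rw [← map_mul, show w * w = 1 from Subtype.ext (hTsq _ (mem_subgroupOf.1 hw) w.2), map_one]
    exact (memE ⟨t, htK⟩).1 (h1 ⟨⟨t, htK⟩, mem_subgroupOf.2 ht, rfl⟩)
  -- the normaliser of `W ∩ K`
  set A : Subgroup G := Wc Q Y ⊓ K with hA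
  have hnormA : ∀ g : G, (∀ w ∈ A, g * w * g⁻¹ ∈ A) → g ∈ normalizer (A : Set G) := by
    intro g hg
    have hle : A.map (MulAut.conj g).toMonoidHom ≤ A := by
      rintro _ ⟨w, hw, rfl⟩
      exact hg w hw
    have heq : A.map (MulAut.conj g).toMonoidHom = A := by
      apply Subgroup.eq_of_le_of_card_ge hle
      exact (Nat.card_congr (A.equivMapOfInjective (MulAut.conj g).toMonoidHom (MulAut.conj g).injective).toEquiv).le
    rw [mem_normalizer_iff]
    intro w
    constructor
    · exact hg w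
    · intro hw
      rw [← heq] at hw
      obtain ⟨w', hw', he⟩ := hw
      have : w' = w := (MulAut.conj g).injective he
      rw [← this]
      exact hw'
  have hmN : m ∈ normalizer (A : Set G) := hnormA m fun w hw => by
    have h1 := o2_norm hm (wc_le hT hw.1)
    have h2 := hKn.conj_mem w hw.2 m
    exact ⟨hTW _ h1 h2, h2⟩
  have hkN : ∀ k ∈ K, k * z = z * k → k ∈ normalizer (A : Set G) := fun k hk hkz => hnormA k fun w hw =>
    ⟨wc_norm (hgz.1 (mem_centralizer_singleton_iff.2 hkz)) hw.1, hKn.conj_mem w hw.2 k⟩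
  have hcA : Nat.card A = 8 := by
    rw [← hE.card]
    have e1 : A = ((Wc Q Y).subgroupOf K).map K.subtype := by
      rw [subgroupOf_map_subtype]
    rw [e1, Nat.card_congr (((Wc Q Y).subgroupOf K).equivMapOfInjective _ K.subtype_injective).symm.toEquiv]
    exact Nat.card_congr (((Wc Q Y).subgroupOf K).equivMapOfInjective f.toMonoidHom f.injective).toEquiv
  have hzA : z ∈ A := ⟨hYW hzY, hzK⟩
  -- seven conjugates
  have hzN : z ∈ normalizer (A : Set G) := le_normalizer hzA
  have h7 : 7 ∣ Nat.card ↥(normalizer (A : Set G)) := by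
    let N := normalizer (A : Set G)
    have horb : MulAction.orbit (ConjAct N) (⟨z, hzN⟩ : N) = {w : N | (w : G) ∈ A ∧ (w : G) ≠ 1} := by
      ext w
      constructor
      · rintro ⟨g, rfl⟩
        refine ⟨?_, ?_⟩
        · show ((ConjAct.ofConjAct g : N) : G) * z * ((ConjAct.ofConjAct g : N) : G)⁻¹ ∈ A
          exact (mem_normalizer_iff.1 (ConjAct.ofConjAct g : N).2 z).1 hzA
        · show ((ConjAct.ofConjAct g : N) : G) * z * ((ConjAct.ofConjAct g : N) : G)⁻¹ ≠ 1
          intro h1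
          rw [mul_inv_eq_one] at h1
          exact hz1 (mul_eq_left.1 h1)
      · rintro ⟨hwA, hw1⟩
        by_cases hwz : (w : G) = z
        · refine ⟨1, ?_⟩
          show (1 : ConjAct N) • (⟨z, hzN⟩ : N) = w
          rw [one_smul]
          exact Subtype.ext hwz.symm
        · obtain ⟨g, hgz', hg⟩ := hE.trans ((memE _).2 (hYW hmY)) hne1 hnez ((memE ⟨w, hwA.2⟩).2 hwA.1) (by
            intro h1
            rw [← map_one f] at h1
            exact hw1 (congrArg Subtype.val (f.injective h1))) (by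
            intro h1
            rw [← hf] at h1
            exact hwz (congrArg Subtype.val (f.injective h1)))
          obtain ⟨k, rfl⟩ := f.surjective g
          rw [← map_mul, ← map_inv, ← map_mul] at hg
          have h1 : (k : G) * (m * z * m⁻¹) * (k : G)⁻¹ = w := congrArg Subtype.val (f.injective hg)
          have h2 : (k : G) * z = z * k := by
            rw [← hf, ← map_mul, ← map_mul] at hgz'
            exact congrArg Subtype.val (f.injective hgz')
          refine ⟨ConjAct.toConjAct ⟨k * m, mul_mem (hkN k k.2 h2) hmN⟩, Subtype.ext ?_⟩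
          show (k : G) * m * z * ((k : G) * m)⁻¹ = w
          rw [← h1]
          group
    have h1 := MulAction.index_stabilizer (ConjAct N) (⟨z, hzN⟩ : N)
    rw [horb] at h1
    have h2 : ({w : N | (w : G) ∈ A ∧ (w : G) ≠ 1}).ncard = 7 := by
      have h3 : ({w : N | (w : G) ∈ A ∧ (w : G) ≠ 1}).ncard = ((A : Set G) \ {1}).ncard := by
        rw [← Set.ncard_image_of_injective _ N.subtype_injective]
        congr 1
        ext w
        constructor
        · rintro ⟨w', ⟨h3, h4⟩, rfl⟩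
          exact ⟨h3, h4⟩
        · rintro ⟨h3, h4⟩
          exact ⟨⟨w, le_normalizer h3⟩, ⟨h3, h4⟩, rfl⟩
      rw [h3, Set.ncard_diff_singleton_of_mem (one_mem A), ← Nat.card_coe_set_eq]
      have : Nat.card (A : Set G) = 8 := hcA
      rw [this]
    rw [h2] at h1
    have h3 := Subgroup.index_dvd_card (MulAction.stabilizer (ConjAct N) (⟨z, hzN⟩ : N))
    rw [h1] at h3
    have h4 : Nat.card (ConjAct N) = Nat.card N := Nat.card_congr ConjAct.ofConjAct.toEquiv
    rwa [h4] at h3
  have : Fact (Nat.Prime 7) := ⟨by norm_num⟩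
  obtain ⟨g, hg⟩ := exists_prime_orderOf_dvd_card' (G := ↥(normalizer (A : Set G))) 7 h7
  have hgo : orderOf (g : G) = 7 := by rw [Subgroup.orderOf_coe]; exact hg
  obtain ⟨k, hk⟩ := CoThreeStd.M12.Out.inner_of_odd_of_equiv (e0.trans CoThreeStd.M12.equiv)
    (φ := (MulAut.conjNormal (g : G) : MulAut K)) (k := 7) (by decide) (by
      rw [← map_pow, ← hgo, pow_orderOf_eq_one, map_one])
  have hgK : (g : G) ∈ K := mem_of_inner h.cent k.2 fun y hy => by
    have := DFunLike.congr_fun hk (⟨y, hy⟩ : K)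
    exact (congrArg Subtype.val this).symm
  have h8 : 7 ∣ Nat.card K := by
    have h9 : orderOf (⟨g, hgK⟩ : K) ∣ Nat.card K := orderOf_dvd_natCard _
    rwa [← Subgroup.orderOf_coe, hgo] at h9
  rw [hcK] at h8
  norm_num at h8

/-- **`RowTwo`** -/
theorem rowTwo_m12 {K : Type u} [Group K] (h : Spor.IsoM12 K) : RowTwo K := by
  obtain ⟨e0⟩ := h
  have hfin : Finite K := Nat.finite_of_card_ne_zero (by
    rw [Nat.card_congr e0.toEquiv, MTwelveType.SylowModel.card_M12]; norm_num)
  rintro z ⟨hz, P, hP⟩ hC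
  have hzz : z * z = 1 := by
    have h1 := pow_orderOf_eq_one z
    rwa [hz, pow_two] at h1
  have hz1 : z ≠ 1 := by
    rintro rfl
    rw [orderOf_one] at hz
    omega
  obtain ⟨f, hf⟩ := exists_equiv (e0.trans CoThreeStd.M12.equiv) hz1 hzz
    ⟨P, fun p hp => mem_centralizer_singleton_iff.1 (hP hp)⟩
  have h1 : (centralizer ({z} : Set K)).map f.toMonoidHom = centralizer ({Omega.Quasithin.M12.z} : Set G12) := by
    ext g
    rw [mem_centralizer_singleton_iff]
    constructor
    · rintro ⟨k, hk, rfl⟩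
      have hk' := mem_centralizer_singleton_iff.1 hk
      show f k * _ = _ * f k
      rw [← hf, ← map_mul, hk', map_mul]
    · intro hg
      obtain ⟨k, rfl⟩ := f.surjective g
      refine ⟨k, mem_centralizer_singleton_iff.2 (f.injective ?_), rfl⟩
      rw [map_mul, map_mul, hf]
      exact hg
  have h2 : Nat.card (centralizer ({z} : Set K)) = Nat.card (centralizer ({Omega.Quasithin.M12.z} : Set G12)) := by
    rw [← h1]
    exact Nat.card_congr ((centralizer ({z} : Set K)).equivMapOfInjective f.toMonoidHom f.injective).toEquiv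
  have h3 := Subgroup.card_mul_index (centralizer ({Omega.Quasithin.M12.z} : Set G12))
  rw [Omega.Quasithin.M12.index_eq, card_g12, ← h2] at h3
  have h4 : Nat.card (centralizer ({z} : Set K)) = 192 := by omega
  obtain ⟨n, hn⟩ := IsPGroup.iff_card.1 hC
  rw [h4] at hn
  have h5 : 3 ∣ 2 ^ n := by rw [← hn]; norm_num
  have h6 := Nat.prime_three.dvd_of_dvd_pow h5
  norm_num at h6

end Cfsg.Agent.H395.TallRow
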